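import Mathlib
import Cfsg.Agent.H350.Tri.Defs
import Cfsg.Agent.H720.TwFr
import Cfsg.Agent.H129.TorusChar
import Cfsg.Agent.H28.GenF.Untw

/-!
# S2187, row TRI, piece TRI-10: lifting the automorphisms of order 3 of `D₄(F)` to the algebraic closure

* `diag_gr` : the triality is a frame automorphism of `D₄(F)`;
* `perm_D4` : the symmetries of order 1, 3 of the diagram `D₄`;
* `exists_form` : `x : Aut (D₄(F))`, `x ^ 3 = 1` : `ι (x a) = y · gr ^ i (fld τ' (ι a)) · y⁻¹`;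
* `lift_D4`.
-/

set_option autoImplicit false
set_option linter.unusedSectionVars false
set_option maxHeartbeats 400000
set_option linter.unusedVariables false

namespace Cfsg.Agent.H28.Tri

open CoxeterSystem Subgroup Cfsg Cfsg.Lie Cfsg.Agent.ChevalleyStructure Cfsg.Agent.ChevalleyStructure.Elts
open Cfsg.Agent.ChevalleyStructure.CoxeterGeom Cfsg.Agent.ChevalleyStructure.CoxeterGeomTypes
  Cfsg.Agent.ChevalleyStructure.NPerm
open Cfsg.Agent.ChevalleyStructure.GraphSymm (symmD4a)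
open Cfsg.Agent.Tits.Roots Cfsg.Agent.Tits.Core Cfsg.Agent.Nodes Cfsg.Agent.Nodes.Reps Cfsg.Agent.Nodes.BNOf
  Cfsg.Agent.Nodes.Bruhat Cfsg.Agent.Nodes.RGDChev
open Cfsg.Agent.KFacts.RgdField Cfsg.Agent.KFacts.RgdChevCoord Cfsg.Agent.KFacts.RgdDiag Cfsg.Agent.KFacts.RgdTau
  Cfsg.Agent.KFacts.RgdAut Cfsg.Agent.KFacts.RgdRigid
open Cfsg.Agent.CpAut.RgdUntw
open Cfsg.Agent.GpExc.Field (glMap emb coe_emb glMap_xG emb_injective coe_glMap glMap_injective)
open Cfsg.Agent.BpExc Cfsg.Agent.BpExc.TorCent Cfsg.Agent.BpExc.TorChev Cfsg.Agent.BpExc.Tow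
  Cfsg.Agent.BpExc.TowChev Cfsg.Agent.BpExc.Fr Cfsg.Agent.BpExc.Pair Cfsg.Agent.BpExc.LangFr
  Cfsg.Agent.BpExc.FamField Cfsg.Agent.BpExc.FamFrame
open Cfsg.Agent.BpExc.FamTw.Gr Cfsg.Agent.BpExc.FamUntw Cfsg.Agent.BpExc.FamExt Cfsg.Agent.H720.TwFr
open Cfsg.Agent.H469.Exc (KK locFin)
open Cfsg.Agent.H350.Tri

/-- the type of `D₄` -/
local notation "tD" => Cfsg.Agent.Nodes.RGDTwD4.hp

section Frame

variable {F : Type} [Field F]

/-- the triality preserves the frame -/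
theorem diag_gr : Diag (TT chevD4 F) (XX chevD4 4 F) (gr (L := F) (tD).inList symmD4a) rho4 := by
  have hf := fr_gr (k := F) (S := symmD4a) (ρ := rho4) tD coxeterD4.toCoxeterSystem onSimple4 vecPerm4 (n := 2)
    (gr_cube4 (tD).inList)
  have hsr : ∀ i : Fin 4, permE rho4 (sr i) = (sr (rho4 i) : Fin 4 → ℤ) := by decide
  refine ⟨fun t => hf.tor t, fun i y => ?_, fun i y => ?_⟩
  · rw [← hsr]
    exact hf.map (sr i) (isRoot_sr _ _ i) y
  · rw [← hsr, ← map_neg]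
    exact hf.map (-sr i) (isRoot_sr _ _ i).neg y

/-- the symmetries of the diagram of order dividing 3 -/
theorem perm_D4 (σ : Equiv.Perm (Fin 4)) (h : ∀ i j, coxeterD4 (σ i) (σ j) = coxeterD4 i j) (h3 : σ ^ 3 = 1) :
    σ = 1 ∨ σ = rho4 ∨ σ = rho4 ^ 2 := by
  have key : ∀ σ : Equiv.Perm (Fin 4), (∀ z : Fin 4 × Fin 4, coxeterD4 (σ z.1) (σ z.2) = coxeterD4 z.1 z.2) → σ ^ 3 = 1 →
      σ = 1 ∨ σ = rho4 ∨ σ = rho4 ^ 2 := by
    decide +kernel
  exact key σ (fun z => h z.1 z.2) h3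

/-- field automorphisms commute -/
theorem comm_field [Finite F] (τ τ' : F ≃+* F) : τ * τ' = τ' * τ := by
  have := Fintype.ofFinite F
  obtain ⟨r, hr⟩ := CharP.exists F
  have : Fact r.Prime := ⟨CharP.char_is_prime F r⟩
  obtain ⟨j, hj⟩ := exists_pow_eq r τ
  obtain ⟨j', hj'⟩ := exists_pow_eq r τ'
  ext a
  rw [RingAut.mul_apply, RingAut.mul_apply, hj, hj', hj, hj', ← pow_mul, ← pow_mul, mul_comm]

variable [Finite F] (r : ℕ) [Fact r.Prime] [CharP F r]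

include r in
/-- the fundamental frame form of an automorphism of order 3 -/
theorem exists_frame {x : MulAut ↥(chevD4.group F)} (hx : x ^ 3 = 1) :
    ∃ (g : ↥(chevD4.group F)) (i : ℕ) (τ : F ≃+* F), τ ^ 3 = 1 ∧
      Tau (TT chevD4 F) (XX chevD4 4 F) (ch tD) (cartanOf chevD4 4)
        (MulAut.conj g * x * (gr (L := F) (tD).inList symmD4a ^ i)⁻¹) 1 τ := by
  obtain ⟨cs⟩ : Nonempty (CoxeterSystem coxeterD4 coxeterD4.Group) := ⟨coxeterD4.toCoxeterSystem⟩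
  have hW := finite_W tD cs
  have R := rgd (K := F) tD cs r
  have C := coords (K := F) tD cs r
  have H := coroots (K := F) tD cs r
  have hG := TorChev.GG_top (K := F) tD cs
  have hfin : Finite ↥(chevD4.group F) := Finite.of_injective _ (Subgroup.subtype_injective _)
  have hconn : ∀ J : Set (Fin 4), J.Nonempty → J ≠ Set.univ → ∃ a ∈ J, ∃ b, b ∉ J ∧ coxeterD4 a b ≠ 2 := by
    have hF1 : IsSimpleGroup ↥(chevD4.group (GaloisField r 2)) ∧ ¬ IsMulCommutative ↥(chevD4.group (GaloisField r 2)) :=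
      S1054.result chevD4 (by simp)
    exact (Cfsg.Agent.H28.GenF.conn_of_fin tD hF1).2
  have hlace : ∀ i j : Fin 4, i ≠ j → coxeterD4 i j = 2 ∨ coxeterD4 i j = 3 := by
    have key : ∀ z : Fin 4 × Fin 4, z.1 ≠ z.2 → coxeterD4 z.1 z.2 = 2 ∨ coxeterD4 z.1 z.2 = 3 := by decide
    exact fun i j => key (i, j)
  obtain ⟨γ, hγ⟩ : ∃ γ, γ = gr (L := F) (tD).inList symmD4a := ⟨_, rfl⟩
  have Dγ : Diag (TT chevD4 F) (XX chevD4 4 F) γ rho4 := by rw [hγ]; exact diag_gr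
  have hγ3 : γ ^ 3 = 1 := by rw [hγ]; exact gr_cube4 (tD).inList
  obtain ⟨τ₀, S₀⟩ := exists_tau R C H hconn Dγ (cartan_of_laced (tD).isCartan hlace (Dγ.matrix R))
  -- the frame automorphism
  obtain ⟨g, h1, h2, σ, D⟩ := exists_frame_any R hG x
  obtain ⟨g', e⟩ := exists_conj_pow g x 3
  rw [hx, mul_one] at e
  have hpow : ∀ {S : Subgroup ↥(chevD4.group F)}, Fix (MulAut.conj g * x) S → Fix ((MulAut.conj g * x) ^ 3) S := by
    intro S hS
    generalize 3 = k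
    induction k with
    | zero => intro y; rw [pow_zero]; exact Iff.rfl
    | succ k ih => rw [pow_succ]; exact ih.mul hS
  have hg' : g' ∈ TT chevD4 F := by
    refine mem_T_of_frame R hG ?_ ?_
    · rw [← e]; exact hpow h1
    · rw [← e]; exact hpow h2
  obtain ⟨τ, S⟩ := exists_tau R C H hconn D (cartan_of_laced (tD).isCartan hlace (D.matrix R))
  have h3 := S.pow 3
  rw [e] at h3
  obtain ⟨hσ3, hτ3⟩ := Tau.unique R C h3 (tau_conj R C hg')
  have h4 := S₀.pow 3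
  rw [hγ3] at h4
  obtain ⟨-, hτ₀3⟩ := Tau.unique R C h4 Tau.one
  -- the power of the triality
  obtain ⟨i, hi⟩ : ∃ i : ℕ, σ = rho4 ^ i := by
    rcases perm_D4 σ (D.matrix R) hσ3 with h | h | h
    · exact ⟨0, by rw [h, pow_zero]⟩
    · exact ⟨1, by rw [h, pow_one]⟩
    · exact ⟨2, h⟩
  have h5 := S.mul (S₀.pow i).inv
  rw [hi, mul_inv_cancel] at h5
  refine ⟨g, i, τ * (τ₀ ^ i)⁻¹, ?_, by rw [← hγ]; exact h5⟩
  have hcm : Commute τ (τ₀ ^ i)⁻¹ := comm_field _ _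
  rw [hcm.mul_pow, hτ3, one_mul, inv_pow, ← pow_mul, mul_comm i 3, pow_mul, hτ₀3, one_pow, inv_one]

end Frame

theorem emb_gr {F k : Type} [Field F] [Field k] (f : F →+* k) (a : ↥(chevD4.group F)) :
    emb (tD).inList f (gr (tD).inList symmD4a a) = gr (tD).inList symmD4a (emb (tD).inList f a) := by
  apply Subtype.ext
  rw [coe_emb, coe_gr, coe_gr, coe_emb, map_mul, map_mul, map_inv, glMap_P]

theorem emb_gr_pow {F k : Type} [Field F] [Field k] (f : F →+* k) (m : ℕ) (a : ↥(chevD4.group F)) :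
    emb (tD).inList f ((gr (tD).inList symmD4a ^ m) a) = (gr (tD).inList symmD4a ^ m) (emb (tD).inList f a) := by
  induction m generalizing a with
  | zero => rfl
  | succ m ih => rw [pow_succ, MulAut.mul_apply, ih, emb_gr, pow_succ, MulAut.mul_apply]

variable {r : ℕ} [Fact r.Prime]

/-- **TRI-10: lifting.** -/
theorem lift_D4 (hr5 : 5 ≤ r) {F : Type} [Field F] [Fintype F] [CharP F r] {n : ℕ} (hn : Fintype.card F = r ^ n)
    (f : F →+* KK r) {x : MulAut ↥(chevD4.group F)} (hx : orderOf x = 3) :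
    ∃ (c i m : ℕ) (y : Y4 r), c.Coprime 3 ∧ (m = 0 ∨ n = 3 * m) ∧ phi chevD4 (KK r) r n y = y ∧
      ∀ a, emb Cfsg.Agent.Nodes.RGDTwD4.hp.inList f ((x ^ c) a) =
        y * (gr4 r ^ i) (phi chevD4 (KK r) r m (emb Cfsg.Agent.Nodes.RGDTwD4.hp.inList f a)) * y⁻¹ := by
  have hrp : r.Prime := Fact.out
  have hx3 : x ^ 3 = 1 := by rw [← hx, pow_orderOf_eq_one]
  have hn' : Nat.card F = r ^ n := by rw [Nat.card_eq_fintype_card, hn]
  have hk1 : IsSimpleGroup ↥(chevD4.group (KK r)) ∧ ¬ IsMulCommutative ↥(chevD4.group (KK r)) :=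
    S1054.result chevD4 (by simp)
  have hZ := Cfsg.Agent.H28.GenF.center_bot' hk1
  have hconn : ∀ J : Set (Fin 4), J.Nonempty → J ≠ Set.univ → ∃ a ∈ J, ∃ b, b ∉ J ∧ coxeterD4 a b ≠ 2 := by
    have hF1 : IsSimpleGroup ↥(chevD4.group (GaloisField r 2)) ∧ ¬ IsMulCommutative ↥(chevD4.group (GaloisField r 2)) :=
      S1054.result chevD4 (by simp)
    exact (Cfsg.Agent.H28.GenF.conn_of_fin tD hF1).2
  obtain ⟨g, i, τ, hτ3, S⟩ := exists_frame r hx3
  obtain ⟨j, hj⟩ := exists_pow_eq r τ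
  obtain ⟨τ', hτ'⟩ : ∃ τ' : KK r ≃+* KK r, ∀ a, τ' (f a) = f (τ a) :=
    ⟨frb (KK r) r j, fun a => by rw [frb_apply, hj, map_pow]⟩
  obtain ⟨t, -, e⟩ := exists_ext tD f r hconn H129.TorusChar.invC_D4 two_ne_zero
    (fun c _ => IsAlgClosed.exists_pow_nat_eq (f c) two_pos) S hτ'
  obtain ⟨ι, hι⟩ : ∃ ι, ι = emb (tD).inList f := ⟨_, rfl⟩
  rw [← hι] at e ⊢
  have hιi : Function.Injective ι := by rw [hι]; exact emb_injective _ f
  have hγι : ∀ m a, ι ((gr (tD).inList symmD4a ^ m) a) = (gr4 r ^ m) (ι a) := fun m a => by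
    rw [hι]; exact emb_gr_pow f m a
  -- the form of `x`
  obtain ⟨z, hz⟩ : ∃ z, z = (ι g)⁻¹ * t := ⟨_, rfl⟩
  have h1 : ∀ a, ι (x a) = (MulAut.conj z * (fld chevD4 τ' * gr4 r ^ i)) (ι a) := by
    intro a
    have h2 := e ((gr (tD).inList symmD4a ^ i) a)
    rw [MulAut.mul_apply, MulAut.inv_apply_self, MulAut.mul_apply, MulAut.conj_apply, map_mul, map_mul, map_inv,
      hγι] at h2
    have h3 : ι (x a) = (ι g)⁻¹ * (ι g * ι (x a) * (ι g)⁻¹) * ι g := by group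
    rw [h3, h2, MulAut.mul_apply, MulAut.mul_apply, MulAut.conj_apply, hz]
    group
  -- the power
  obtain ⟨c, m, hc, hm, hcm⟩ : ∃ c m : ℕ, c.Coprime 3 ∧ (m = 0 ∨ n = 3 * m) ∧ ∀ a, (τ ^ c) a = a ^ r ^ m := by
    by_cases hτ1 : τ = 1
    · refine ⟨1, 0, by norm_num, Or.inl rfl, fun a => ?_⟩
      rw [hτ1, one_pow, pow_zero, pow_one]
      rfl
    · obtain ⟨c, m, hc, -, h2, h3⟩ := exists_field r Nat.prime_three hτ3 hτ1
      refine ⟨c, m, hc, Or.inr ?_, h3⟩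
      rw [hn'] at h2
      rw [Nat.pow_right_injective hrp.two_le h2, mul_comm]
  have h2 : ∀ (s : ℕ) (a), ι ((x ^ s) a) = ((MulAut.conj z * (fld chevD4 τ' * gr4 r ^ i)) ^ s) (ι a) := by
    intro s
    induction s with
    | zero => intro a; rfl
    | succ s ih =>
      intro a
      rw [pow_succ', MulAut.mul_apply, h1, ih, pow_succ' (MulAut.conj z * _)]
      rfl
  obtain ⟨y, hy⟩ := exists_conj_pow z (fld chevD4 τ' * gr4 r ^ i) c
  have hcomm : Commute (fld chevD4 τ') (gr4 r ^ i) :=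
    Commute.pow_right ((gr_mul_fld (tD).inList symmD4a τ').symm : Commute _ _) i
  -- the automorphism of the finite group
  obtain ⟨A, hA⟩ : ∃ A : MulAut ↥(chevD4.group F), A = gr (tD).inList symmD4a ^ (i * c) * fld chevD4 (τ ^ c) := ⟨_, rfl⟩
  have hphi : ∀ a, phi chevD4 (KK r) r m (ι a) = ι (fld chevD4 (τ ^ c) a) := by
    intro a
    rw [hι]
    exact fld_emb tD f (τ := τ ^ c) (τ' := frb (KK r) r m) (fun b => by rw [frb_apply, hcm, map_pow]) a
  have hτ'c : ∀ (s : ℕ) (b : F), (τ' ^ s) (f b) = f ((τ ^ s) b) := by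
    intro s
    induction s with
    | zero => intro b; rfl
    | succ s ih => intro b; rw [pow_succ, RingAut.mul_apply, hτ', ih, pow_succ, RingAut.mul_apply]
  have hfld : ∀ a, (fld chevD4 τ' ^ c) (ι a) = ι (fld chevD4 (τ ^ c) a) := by
    intro a
    rw [← fld_pow, hι]
    exact fld_emb tD f (τ := τ ^ c) (τ' := τ' ^ c) (hτ'c c) a
  have hAι : ∀ a, ι (A a) = (gr4 r ^ (i * c)) (phi chevD4 (KK r) r m (ι a)) := by
    intro a
    rw [hA, MulAut.mul_apply, hγι, hphi]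
  have h3 : ∀ a, ι ((x ^ c) a) = y * ι (A a) * y⁻¹ := by
    intro a
    rw [h2, hy, MulAut.mul_apply, MulAut.conj_apply, hcomm.mul_pow, (hcomm.pow_pow c c).eq, MulAut.mul_apply, hfld,
      hAι, hphi, ← pow_mul]
  have hfix : ∀ a, phi chevD4 (KK r) r n (ι a) = ι a := fun a => by
    rw [hι]; exact phi_emb tD r f hn' a
  refine ⟨c, i * c, m, y, hc, hm, ?_, fun a => by rw [h3, hAι]⟩
  have h4 : y⁻¹ * phi chevD4 (KK r) r n y = 1 := by
    refine eq_one_of_comm tD (locFin r) r f hZ fun b => ?_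
    rw [← hι]
    have h5 := h3 (A⁻¹ b)
    rw [MulAut.apply_inv_self] at h5
    have h6 := congrArg (phi chevD4 (KK r) r n) h5
    rw [hfix, map_mul, map_mul, map_inv, hfix, h5] at h6
    calc y⁻¹ * phi chevD4 (KK r) r n y * ι b
        = y⁻¹ * (phi chevD4 (KK r) r n y * ι b * (phi chevD4 (KK r) r n y)⁻¹) * phi chevD4 (KK r) r n y := by group
      _ = y⁻¹ * (y * ι b * y⁻¹) * phi chevD4 (KK r) r n y := by rw [← h6]
      _ = ι b * (y⁻¹ * phi chevD4 (KK r) r n y) := by group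
  exact (inv_mul_eq_one.1 h4).symm

end Cfsg.Agent.H28.Tri
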